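/-
Unipotent elements `1 + E`, `E² = 0`, in a group of linear automorphisms.
-/
import Cfsg.Agent.Geom.TvGen

set_option autoImplicit false

namespace CF.MaxSub

open Module Geom

variable {F V : Type*} [Field F] [AddCommGroup V] [Module F V] {X : Subgroup (V ≃ₗ[F] V)}

/-- `1 + E ∈ X` and `E² = 0`. -/
structure Un (X : Subgroup (V ≃ₗ[F] V)) (E : End F V) : Prop where
  sq : E * E = 0
  mem : ∃ g ∈ X, (g : V →ₗ[F] V) = 1 + E

/-- The automorphism `1 + E`. -/
def unip (E : End F V) (h : E * E = 0) : V ≃ₗ[F] V :=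
  LinearEquiv.ofLinear (1 + E) (1 - E)
    (by change (1 + E) * (1 - E) = (1 : End F V); linear_combination (norm := noncomm_ring) -h)
    (by change (1 - E) * (1 + E) = (1 : End F V); linear_combination (norm := noncomm_ring) -h)

theorem unip_apply (E : End F V) (h : E * E = 0) (v : V) : unip E h v = v + E v := rfl

theorem coe_mul_end (g h : V ≃ₗ[F] V) :
    ((g * h : V ≃ₗ[F] V) : V →ₗ[F] V) = (g : End F V) * (h : End F V) := rfl

theorem coe_inv_mul_end (g : V ≃ₗ[F] V) :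
    ((g⁻¹ : V ≃ₗ[F] V) : End F V) * (g : End F V) = 1 := by
  rw [← coe_mul_end, inv_mul_cancel]; rfl

theorem coe_mul_inv_end (g : V ≃ₗ[F] V) :
    (g : End F V) * ((g⁻¹ : V ≃ₗ[F] V) : End F V) = 1 := by
  rw [← coe_mul_end, mul_inv_cancel]; rfl

theorem un_of_apply {E : End F V} (h : ∀ v, E (E v) = 0) {g : V ≃ₗ[F] V} (hg : g ∈ X)
    (e : ∀ v, g v = v + E v) : Un X E :=
  ⟨LinearMap.ext h, g, hg, LinearMap.ext e⟩

namespace Un

variable {E E' : End F V}

theorem apply_apply (h : Un X E) (v : V) : E (E v) = 0 := LinearMap.congr_fun h.sq v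

theorem unip_mem (h : Un X E) : unip E h.sq ∈ X := by
  obtain ⟨g, hg, e⟩ := h.mem
  rwa [show unip E h.sq = g from LinearEquiv.ext fun v => (LinearMap.congr_fun e v).symm]

theorem congr (h : Un X E) (e : ∀ v, E v = E' v) : Un X E' := LinearMap.ext e ▸ h

theorem zero : Un X 0 := ⟨by simp, 1, one_mem _, by rw [add_zero]; rfl⟩

theorem neg (h : Un X E) : Un X (-E) :=
  ⟨by simp [h.sq], _, inv_mem h.unip_mem, by rw [← sub_eq_add_neg]; rfl⟩

theorem add (h : Un X E) (h' : Un X E') (e : E * E' = 0) (e' : E' * E = 0) : Un X (E + E') := by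
  obtain ⟨g, hg, h1⟩ := h.mem
  obtain ⟨g', hg', h2⟩ := h'.mem
  refine ⟨by simp [add_mul, mul_add, h.sq, h'.sq, e, e'], _, mul_mem hg hg', ?_⟩
  rw [coe_mul_end, h1, h2]
  linear_combination (norm := noncomm_ring) e

theorem sub (h : Un X E) (h' : Un X E') (e : E * E' = 0) (e' : E' * E = 0) : Un X (E - E') := by
  simpa [sub_eq_add_neg] using h.add h'.neg (by simp [e]) (by simp [e'])

theorem conj (h : Un X E) {g : V ≃ₗ[F] V} (hg : g ∈ X) :
    Un X ((g : End F V) * E * ((g⁻¹ : V ≃ₗ[F] V) : End F V)) := by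
  obtain ⟨a, ha, h1⟩ := h.mem
  refine ⟨?_, _, mul_mem (mul_mem hg ha) (inv_mem hg), ?_⟩
  · ext v
    change g (E (g⁻¹ (g (E (g⁻¹ v))))) = 0
    rw [inv_apply_apply, h.apply_apply, map_zero]
  · rw [coe_mul_end, coe_mul_end, h1, mul_add, add_mul, mul_one, coe_mul_inv_end]

theorem of_conj (h : Un X E) {g : V ≃ₗ[F] V} (hg : g ∈ X) (e : ∀ v, E' (g v) = g (E v)) :
    Un X E' :=
  (h.conj hg).congr fun v => by
    change g (E (g⁻¹ v)) = _
    rw [← e, apply_inv_apply]

theorem comm (h : Un X E) (h' : Un X E') (e : E * E' * E = 0) (e' : E' * E * E' = 0) :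
    Un X (E * E' - E' * E) := by
  obtain ⟨a, ha, h1⟩ := h.mem
  obtain ⟨b, hb, h2⟩ := h'.mem
  obtain ⟨c, hc, h3⟩ := h.neg.mem
  obtain ⟨d, hd, h4⟩ := h'.neg.mem
  have s := h.sq
  have s' := h'.sq
  refine ⟨?_, _, mul_mem (mul_mem ha hb) (mul_mem hc hd), ?_⟩
  · linear_combination (norm := noncomm_ring) e * E' - E * s' * E - E' * s * E' + e' * E
  · rw [coe_mul_end, coe_mul_end, coe_mul_end, h1, h2, h3, h4]
    linear_combination (norm := noncomm_ring) e * E' - s + s * E' - s' + e' - E * s' - e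

theorem tvE_mem {φ : Dual F V} {v : V} (h : Un X (φ.smulRight v)) (e : φ v = 0) : tvE e ∈ X := by
  convert h.unip_mem using 1
  exact LinearEquiv.ext fun _ => rfl

end Un

theorem un_of_tvE {φ : Dual F V} {v : V} {e : φ v = 0} (h : tvE e ∈ X) : Un X (φ.smulRight v) :=
  un_of_apply (fun w => by simp [e]) h fun _ => rfl

theorem exists_max_nat {α : Type*} {s : Set α} (f : α → ℕ) {N : ℕ} (hb : ∀ a ∈ s, f a ≤ N)
    (hs : s.Nonempty) : ∃ a ∈ s, ∀ b ∈ s, f b ≤ f a := by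
  obtain ⟨a, ha, h⟩ := (measure fun a => N - f a).wf.has_min s hs
  refine ⟨a, ha, fun b hb' => ?_⟩
  have h1 : ¬ N - f b < N - f a := h b hb'
  have := hb b hb'
  omega

end CF.MaxSub
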