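/-
Semilinear automorphisms over an extension field; overgroups containing a transvection.
-/
import Cfsg.Agent.MaxSub.Unip

set_option autoImplicit false

namespace CF.MaxSub

open Module Geom

variable {F K V : Type*} [Field F] [Field K] [Algebra F K] [AddCommGroup V] [Module F V]
  [Module K V] [IsScalarTower F K V]

variable (F K V) in
/-- The `F`-linear automorphisms that are semilinear over `K`. -/
def SemiG : Subgroup (V ≃ₗ[F] V) where
  carrier := {g | (∀ k : K, ∃ k' : K, ∀ v, g (k • v) = k' • g v) ∧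
    ∀ k' : K, ∃ k : K, ∀ v, g (k • v) = k' • g v}
  one_mem' := ⟨fun k => ⟨k, fun _ => rfl⟩, fun k => ⟨k, fun _ => rfl⟩⟩
  mul_mem' {a b} ha hb := ⟨fun k => by
    obtain ⟨k', h1⟩ := hb.1 k
    obtain ⟨k'', h2⟩ := ha.1 k'
    exact ⟨k'', fun v => by rw [LinearEquiv.mul_apply, h1, h2]; rfl⟩, fun k => by
    obtain ⟨k', h1⟩ := ha.2 k
    obtain ⟨k'', h2⟩ := hb.2 k'
    exact ⟨k'', fun v => by rw [LinearEquiv.mul_apply, h2, h1]; rfl⟩⟩
  inv_mem' {a} ha := ⟨fun k => by
    obtain ⟨k', h1⟩ := ha.2 k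
    exact ⟨k', fun v => a.injective (by rw [h1, apply_inv_apply, apply_inv_apply])⟩, fun k => by
    obtain ⟨k', h1⟩ := ha.1 k
    exact ⟨k', fun v => a.injective (by rw [h1, apply_inv_apply, apply_inv_apply])⟩⟩

omit [Algebra F K] [IsScalarTower F K V] in
theorem mem_semiG [Finite K] [hV : Nontrivial V] {g : V ≃ₗ[F] V}
    (h : ∀ k : K, ∃ k' : K, ∀ v, g (k • v) = k' • g v) : g ∈ SemiG F K V := by
  refine ⟨h, ?_⟩
  choose s hs using h
  obtain ⟨v, hv⟩ := exists_ne (0 : V)
  have : Function.Injective s := fun a b e =>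
    smul_left_injective K hv (g.injective (by rw [hs, hs, e]))
  intro k'
  obtain ⟨k, rfl⟩ := Finite.injective_iff_surjective.1 this k'
  exact ⟨k, hs k⟩

theorem restrict_mem_semiG (g : V ≃ₗ[K] V) : g.restrictScalars F ∈ SemiG F K V :=
  ⟨fun k => ⟨k, fun v => g.map_smul k v⟩, fun k => ⟨k, fun v => g.map_smul k v⟩⟩

theorem det_restrict (g : V ≃ₗ[K] V) :
    LinearMap.det (g.restrictScalars F : V →ₗ[F] V) =
      Algebra.norm F (LinearMap.det (g : V →ₗ[K] V)) :=
  LinearMap.det_restrictScalars (f := (g : V →ₗ[K] V))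

omit [Algebra F K] [IsScalarTower F K V] in
/-- An additive bijection mapping `K`-lines to `K`-lines is semilinear. -/
theorem mem_semiG_of_lines [Finite K] (hd : 2 ≤ finrank K V) {g : V ≃ₗ[F] V}
    (h : ∀ v (k : K), g (k • v) ∈ K ∙ g v) : g ∈ SemiG F K V := by
  have : Nontrivial V := nontrivial_of_finrank_pos (R := K) (by omega)
  refine mem_semiG fun k => ?_
  choose s hs using fun v => Submodule.mem_span_singleton.1 (h v k)
  have h1 : ∀ v w, g v ≠ 0 → g w ∉ K ∙ g v → s v = s w := fun v w hv hw => by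
    have h2 : (s (v + w) - s v) • g v + (s (v + w) - s w) • g w = 0 := by
      have := hs (v + w)
      rw [smul_add k, map_add, map_add, ← hs, ← hs] at this
      linear_combination (norm := module) this
    have h3 : s (v + w) - s w = 0 := by
      by_contra h3
      exact hw ((Submodule.smul_mem_iff _ h3).1 (by
        rw [eq_neg_of_add_eq_zero_right h2]
        exact neg_mem (Submodule.smul_mem _ _ (Submodule.mem_span_singleton_self _))))
    rw [h3, zero_smul, add_zero, smul_eq_zero_iff_left hv] at h2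
    linear_combination h3 - h2
  obtain ⟨v, hv⟩ := exists_ne (0 : V)
  have hv' : g v ≠ 0 := by simpa using hv
  obtain ⟨y, hy⟩ : ∃ y, y ∉ K ∙ g v := by
    by_contra! hc
    have := finrank_span_singleton (K := K) hv'
    rw [Submodule.eq_top_iff'.2 hc, finrank_top] at this
    omega
  obtain ⟨y, rfl⟩ := g.surjective y
  refine ⟨s v, fun w => ?_⟩
  by_cases hw : g w = 0
  · rw [← hs, hw, smul_zero, smul_zero]
  by_cases hw' : g w ∈ K ∙ g v
  · rw [← hs, h1 v y hv' hy, h1 w y hw fun e => hy ((Submodule.span_singleton_le_iff_mem _ _).2 hw' e)]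
  · rw [← hs, h1 v w hv' hw']

theorem subring_eq_top_of_pow [Finite F] [Finite K] (hr : 2 ≤ finrank F K) (L : Subring K)
    (h : ∀ a : K, a ≠ 0 → a ^ (Nat.card F - 1) ∈ L) : L = ⊤ := by
  classical
  have := Fintype.ofFinite F
  have hq : 1 < Nat.card F := Finite.one_lt_card
  have hinv : ∀ a ∈ L, a⁻¹ ∈ L := fun a ha => by
    by_cases h0 : a = 0
    · rw [h0, inv_zero]; exact zero_mem _
    · exact inv_mem_of_finite L ha (mul_inv_cancel₀ h0) (inv_mul_cancel₀ h0)
  have hp : ∀ a : K, a ^ Nat.card F = a ^ (Nat.card F - 1) * a := fun a => by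
    rw [← pow_succ, Nat.sub_add_cancel hq.le]
  have h1 : ∀ a : K, a ^ Nat.card F ≠ a → a ∈ L := fun a ha => by
    have h2 : (a + 1) ^ Nat.card F = a ^ Nat.card F + 1 := by
      have := map_add (FiniteField.frobeniusAlgHom F K) a 1
      simpa [Nat.card_eq_fintype_card] using this
    have a0 : a ≠ 0 := by rintro rfl; exact ha (zero_pow (by omega))
    have a1 : a + 1 ≠ 0 := fun e => ha (by
      rw [e, zero_pow (by omega)] at h2
      linear_combination -h2 - e)
    rw [hp, hp] at h2
    have h3 : (a + 1) ^ (Nat.card F - 1) - a ^ (Nat.card F - 1) ≠ 0 := fun e => ha (by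
      have h4 : a ^ (Nat.card F - 1) = 1 := by linear_combination h2 - (a + 1) * e
      rw [hp, h4, one_mul])
    have h5 := mul_mem (sub_mem (one_mem L) (h _ a1)) (hinv _ (sub_mem (h _ a1) (h _ a0)))
    convert h5 using 1
    field_simp
    linear_combination h2
  obtain ⟨a, ha⟩ : ∃ a : K, a ^ Nat.card F ≠ a := by
    by_contra! hc
    have h2 := FiniteField.orderOf_frobeniusAlgHom F K
    have h3 : FiniteField.frobeniusAlgHom F K = 1 :=
      AlgHom.ext fun a => by simpa [Nat.card_eq_fintype_card] using hc a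
    rw [h3, orderOf_one] at h2
    omega
  refine eq_top_iff.2 fun b _ => ?_
  by_cases hb : b ^ Nat.card F = b
  · have h2 : (b + a) ^ Nat.card F = b ^ Nat.card F + a ^ Nat.card F := by
      have := map_add (FiniteField.frobeniusAlgHom F K) b a
      simpa [Nat.card_eq_fintype_card] using this
    simpa using sub_mem (h1 (b + a) fun e => ha (by linear_combination e - h2 - hb)) (h1 a ha)
  · exact h1 b hb

theorem exists_dual_repr [FiniteDimensional F K] [FiniteDimensional K V] {ν : Dual F K}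
    (hν : ν 1 = 1) (l : Dual F V) : ∃ φ : Dual K V, ∀ v, l v = ν (φ v) := by
  have : FiniteDimensional F V := Module.Finite.trans K V
  have : FiniteDimensional F (Dual K V) := Module.Finite.trans K _
  let T : Dual K V →ₗ[F] Dual F V :=
    { toFun := fun φ => ν ∘ₗ φ.restrictScalars F
      map_add' := fun a b => by ext; simp
      map_smul' := fun c a => by ext; simp }
  have h1 : Function.Injective T := (injective_iff_map_eq_zero T).2 fun φ e => by
    ext v
    by_contra h0
    have := LinearMap.congr_fun e ((φ v)⁻¹ • v)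
    simp [T, inv_mul_cancel₀ h0, hν] at this
  obtain ⟨φ, e⟩ := (LinearMap.injective_iff_surjective_of_finrank_eq_finrank (by
    rw [← finrank_mul_finrank F K (Dual K V), Subspace.dual_finrank_eq, Subspace.dual_finrank_eq,
      finrank_mul_finrank])).1 h1 l
  exact ⟨φ, fun v => (LinearMap.congr_fun e v).symm⟩

/-- `v ↦ T v • u`. -/
abbrev rt (T : V →ₗ[F] K) (u : V) : End F V := T.smulRight u

variable (K) in
/-- The data of an overgroup of `ΓL_K(V) ∩ SL_F(V)`. -/
structure FldL (X : Subgroup (V ≃ₗ[F] V)) : Prop where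
  prime : (finrank F K).Prime
  two : 2 ≤ finrank K V
  mem : ∀ g ∈ SemiG F K V, g ∈ SLG F V → g ∈ X

namespace FldL

variable {X : Subgroup (V ≃ₗ[F] V)} (h : FldL K X)
include h

theorem fin : FiniteDimensional K V := .of_finrank_pos (by have := h.two; omega)

theorem finF : FiniteDimensional F V :=
  have : FiniteDimensional F K := .of_finrank_pos h.prime.pos
  have := h.fin
  Module.Finite.trans K V

theorem sl_mem {g : V ≃ₗ[K] V} (hg : g ∈ SLG K V) : g.restrictScalars F ∈ X :=
  h.mem _ (restrict_mem_semiG g) (mem_SLG.2 (by rw [det_restrict, mem_SLG.1 hg, map_one]))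

theorem tv_mem {φ : Dual K V} {u : V} (e : φ u = 0) : (tvE e).restrictScalars F ∈ X :=
  h.sl_mem (tvE_mem_SLG e)

theorem un_tv {φ : Dual K V} {u : V} (e : φ u = 0) : Un X (rt (φ.restrictScalars F) u) :=
  un_of_apply (fun v => by simp [e]) (h.tv_mem e) fun _ => rfl

theorem exists_notMem (u : V) : ∃ y, y ∉ K ∙ u := by
  by_contra! hc
  have := (finrank_span_le_card (R := K) {u})
  rw [Submodule.eq_top_iff'.2 hc, finrank_top] at this
  have := h.two
  simp at *
  omega

theorem trans {u v : V} (hu : u ≠ 0) (hv : v ≠ 0) : ∃ g ∈ SLG K V, g u = v := by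
  have := h.fin
  by_cases e : v ∈ K ∙ u
  · obtain ⟨y, hy⟩ := h.exists_notMem u
    obtain ⟨g, h1, h2⟩ := exists_SLG_map hu hy
    obtain ⟨g', h3, h4⟩ := exists_SLG_map hv fun e' =>
      hy ((Submodule.span_singleton_le_iff_mem _ _).2 e e')
    exact ⟨g'⁻¹ * g, mul_mem (inv_mem h3) h1, by
      rw [LinearEquiv.mul_apply, h2, ← h4, inv_apply_apply]⟩
  · exact exists_SLG_map hu e

variable [Finite F] [Finite K]

theorem dil_mem {φ : Dual K V} {w : V} (e : φ w = 1) {a : K} (ha : a ≠ 0) :
    ∃ g ∈ X, ∀ v, g v = v + ((a ^ (Nat.card F - 1) - 1) * φ v) • w := by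
  have := h.fin
  have := Fintype.ofFinite F
  have h1 : 1 + ((a ^ (Nat.card F - 1) - 1) • φ) w = a ^ (Nat.card F - 1) := by simp [e]
  have h2 : IsUnit (1 + ((a ^ (Nat.card F - 1) - 1) • φ) w) := by
    rw [h1]; exact (pow_ne_zero _ ha).isUnit
  refine ⟨_, h.mem _ (restrict_mem_semiG (LinearEquiv.dilatransvection h2)) (mem_SLG.2 ?_),
    fun v => rfl⟩
  have : FiniteDimensional F K := .of_finrank_pos h.prime.pos
  rw [det_restrict, LinearEquiv.dilatransvection.coe_toLinearMap, LinearMap.transvection.det, h1,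
    map_pow, Nat.card_eq_fintype_card,
    FiniteField.pow_card_sub_one_eq_one _ (Algebra.norm_ne_zero_iff.2 ha)]

theorem un_smul {u : V} (hu : u ≠ 0) (a : K) {T : V →ₗ[F] K} (hT : ∀ k : K, T (k • u) = 0)
    (h1 : Un X (rt T u)) : Un X (rt (a • T) u) := by
  obtain ⟨ψ, h2, -⟩ := exists_dual_one (W := (⊥ : Submodule K V)) (v := u) (by simpa using hu)
  let L : Subring K :=
    { carrier := {a | ∀ T : V →ₗ[F] K, (∀ k : K, T (k • u) = 0) → Un X (rt T u) →
        Un X (rt (a • T) u)}
      mul_mem' := fun {a b} ha hb T hT h1 => by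
        rw [mul_smul]; exact ha _ (fun k => by simp [hT]) (hb T hT h1)
      one_mem' := fun T _ h1 => by rwa [one_smul]
      add_mem' := fun {a b} ha hb T hT h1 =>
        ((ha T hT h1).add (hb T hT h1) (by ext; simp [hT]) (by ext; simp [hT])).congr fun v => by
          simp [add_smul, add_mul]
      zero_mem' := fun T _ _ => Un.zero.congr fun v => by simp
      neg_mem' := fun {a} ha T hT h1 => (ha T hT h1).neg.congr fun v => by simp }
  refine (subring_eq_top_of_pow h.prime.two_le L fun a ha T hT h1 => ?_).ge (Subring.mem_top a)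
    T hT h1
  obtain ⟨g, hg, e⟩ := h.dil_mem h2 ha
  refine h1.of_conj hg fun v => ?_
  simp only [e, LinearMap.smulRight_apply, map_add, hT, map_smul, h2, LinearMap.smul_apply]
  module

theorem un_comp {u : V} {φ : Dual K V} (e : φ u = 0) (a : K) {T : K →ₗ[F] K}
    (h1 : Un X (rt (T ∘ₗ φ.restrictScalars F) u)) :
    Un X (rt ((T ∘ₗ LinearMap.mulLeft F a) ∘ₗ φ.restrictScalars F) u) := by
  by_cases h0 : φ = 0
  · exact Un.zero.congr fun v => by simp [h0]
  obtain ⟨w, hw⟩ : ∃ w, φ w = 1 := LinearMap.range_eq_top.1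
    ((eq_bot_or_eq_top _).resolve_left (by simpa [LinearMap.range_eq_bot] using h0)) 1
  let L : Subring K :=
    { carrier := {a | ∀ T : K →ₗ[F] K, Un X (rt (T ∘ₗ φ.restrictScalars F) u) →
        Un X (rt ((T ∘ₗ LinearMap.mulLeft F a) ∘ₗ φ.restrictScalars F) u)}
      mul_mem' := fun {a b} ha hb T h1 => (hb _ (ha T h1)).congr fun v => by simp [mul_assoc]
      one_mem' := fun T h1 => h1.congr fun v => by simp
      add_mem' := fun {a b} ha hb T h1 =>
        ((ha T h1).add (hb T h1) (by ext; simp [e]) (by ext; simp [e])).congr fun v => by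
          simp [add_smul, add_mul]
      zero_mem' := fun T _ => Un.zero.congr fun v => by simp
      neg_mem' := fun {a} ha T h1 => (ha T h1).neg.congr fun v => by simp }
  refine (subring_eq_top_of_pow h.prime.two_le L fun a ha T h1 => ?_).ge (Subring.mem_top a) T h1
  obtain ⟨g, hg, e'⟩ := h.dil_mem hw (inv_ne_zero ha)
  refine h1.of_conj hg fun v => ?_
  have : a ^ (Nat.card F - 1) * (φ v + ((a ^ (Nat.card F - 1))⁻¹ - 1) * φ v) = φ v := by
    have := pow_ne_zero (Nat.card F - 1) ha
    field_simp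
    ring
  simp [e', e, hw, this]

/-- A single transvection generates `SL`. -/
theorem sl_le {l : Dual F V} {u : V} (h1 : Un X (l.smulRight u)) (hl : l ≠ 0) (hu : u ≠ 0) :
    SLG F V ≤ X := by
  have := h.fin
  have := h.finF
  have : FiniteDimensional F K := .of_finrank_pos h.prime.pos
  obtain ⟨ν, hν, -⟩ := exists_dual_one (W := (⊥ : Submodule F K)) (v := 1) (by simp)
  let P : V → Dual K V → Prop := fun u φ => Un X ((ν ∘ₗ φ.restrictScalars F).smulRight u)
  have hsc : ∀ u φ (c : K), φ u = 0 → P u φ → P u (c • φ) := fun u φ c e hP =>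
    (h.un_comp e c (T := Algebra.linearMap F K ∘ₗ ν) (hP.congr fun v => by simp)).congr
      fun v => by simp
  have hcj : ∀ u φ φ' (g : V ≃ₗ[K] V), g ∈ SLG K V → (∀ v, φ' (g v) = φ v) → P u φ → P (g u) φ' :=
    fun u φ φ' g hg e hP => Un.of_conj hP (h.sl_mem hg) fun v => by simp [e]
  have hl0 : l u = 0 := by
    have := h1.apply_apply u
    simpa [hu] using this
  obtain ⟨φ₁, e₁, e₂, e₃⟩ : ∃ φ : Dual K V, φ u = 0 ∧ φ ≠ 0 ∧ P u φ := by
    by_cases hc : ∀ k : K, l (k • u) = 0
    · obtain ⟨φ, e⟩ := exists_dual_repr hν l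
      refine ⟨φ, by_contra fun h0 => ?_, ?_, h1.congr fun v => by simp [e]⟩
      · have := hc (φ u)⁻¹
        simp [e, inv_mul_cancel₀ h0, hν] at this
      · rintro rfl
        exact hl (LinearMap.ext fun v => by simpa using e v)
    · push Not at hc
      obtain ⟨k, hk⟩ := hc
      obtain ⟨y, hy⟩ := h.exists_notMem u
      obtain ⟨ψ, h2, h3⟩ := exists_dual_one hy
      have h4 : ψ u = 0 := h3 u (Submodule.mem_span_singleton_self _)
      let l' : Dual F V := l ∘ₗ rt (ψ.restrictScalars F) u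
      have h5 : Un X ((l - l').smulRight u) :=
        h1.of_conj (h.tv_mem h4) fun v => by simp [tvE_apply, l', h4]
      have h6 := h1.sub h5 (by ext; simp [hl0]) (by ext; simp [hl0, l', h4])
      obtain ⟨φ, e⟩ := exists_dual_repr hν l'
      refine ⟨φ, by_contra fun h0 => ?_, ?_, h6.congr fun v => by simp [e, sub_smul]⟩
      · have := e ((φ u)⁻¹ • u)
        simp [l', h4, inv_mul_cancel₀ h0, hν] at this
      · rintro rfl
        exact hk (by simpa [l', h2] using e (k • y))
  have h2 : ∀ φ : Dual K V, φ u = 0 → P u φ := fun φ e => by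
    by_cases hc : φ ∈ K ∙ φ₁
    · obtain ⟨c, rfl⟩ := Submodule.mem_span_singleton.1 hc
      exact hsc u φ₁ c e₁ e₃
    obtain ⟨w, h3, h4⟩ : ∃ w, (φ₁ - φ) w = 0 ∧ φ w = 1 := by
      by_contra! h3
      have h4 : LinearMap.ker (φ₁ - φ) ≤ LinearMap.ker φ := fun w hw => by
        by_contra h5
        exact h3 ((φ w)⁻¹ • w) (by rw [map_smul, LinearMap.mem_ker.1 hw, smul_zero])
          (by rw [map_smul, smul_eq_mul, inv_mul_cancel₀ h5])
      obtain ⟨c, h5⟩ := Submodule.mem_span_singleton.1 (mem_span_of_iInf_ker_le_ker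
        (L := fun _ : Unit => φ₁ - φ) (K := φ) (by simpa using h4) |> (by simpa using ·))
      have h6 : 1 + c ≠ 0 := fun e => e₂ (by
        have : c = -1 := by linear_combination e
        rw [this] at h5
        linear_combination (norm := module) -h5)
      exact hc ((Submodule.smul_mem_iff _ h6).1 (Submodule.mem_span_singleton.2
        ⟨c, by linear_combination (norm := module) h5⟩))
    have := hcj u φ₁ φ _ (tvE_mem_SLG h3) (fun v => by simp [tvE_apply, h4]) e₃
    simpa [tvE_apply, e, e₁] using this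
  have h3 : ∀ (w : V) (φ : Dual K V), φ w = 0 → P w φ := fun w φ e => by
    by_cases hw : w = 0
    · exact Un.zero.congr fun v => by simp [hw]
    obtain ⟨g, hg, rfl⟩ := h.trans hu hw
    exact hcj u (φ ∘ₗ g) φ g hg (fun _ => rfl) (h2 _ e)
  refine SLG_le_of_tvE fun l w e => Un.tvE_mem ?_ e
  obtain ⟨φ, hφ⟩ := exists_dual_repr hν l
  by_cases hw : φ w = 0
  · exact (h3 w φ hw).congr fun v => by simp [hφ]
  obtain ⟨y, hy⟩ := h.exists_notMem w
  have h4 : y - (φ y / φ w) • w ∉ K ∙ w := fun e' => hy (by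
    simpa using add_mem e' (Submodule.smul_mem _ (φ y / φ w) (Submodule.mem_span_singleton_self w)))
  have h5 : φ (y - (φ y / φ w) • w) = 0 := by simp [hw]
  generalize y - (φ y / φ w) • w = z at h4 h5
  obtain ⟨ψ, h6, h7⟩ := exists_dual_one h4
  have h8 : ψ w = 0 := h7 w (Submodule.mem_span_singleton_self _)
  rw [hφ] at e
  exact (Un.comm (h3 w ψ h8) (h3 z φ h5) (by ext; simp [e]) (by ext; simp [e])).congr
    fun v => by simp [e, h6, hν, hφ]

end FldL

end CF.MaxSub
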