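/-
Maximality of the field extension subgroups `ΓL_d(q^r) ∩ SL_{dr}(q)`, `r` prime, `d ≥ 2`.
-/
import Cfsg.Agent.MaxSub.C3A

set_option autoImplicit false

namespace CF.MaxSub

open Module Geom

variable {F K V : Type*} [Field F] [Field K] [Algebra F K] [AddCommGroup V] [Module F V]
  [Module K V] [IsScalarTower F K V]

theorem subalgebra_top_of_prime (hr : (finrank F K).Prime) (L : Subalgebra F K) {c : K}
    (hc : c ∈ L) (h : ∀ a : F, c ≠ algebraMap F K a) : L = ⊤ :=
  ((Subalgebra.isSimpleOrder_of_finrank_prime F K hr).eq_bot_or_eq_top L).resolve_left fun e => by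
    obtain ⟨a, ha⟩ := Algebra.mem_bot.1 (e ▸ hc)
    exact h a ha.symm

theorem bimod_mem [Finite K] (hr : (finrank F K).Prime) (S : AddSubgroup (K →ₗ[F] K))
    (hL : ∀ (a : K), ∀ T ∈ S, a • T ∈ S) (hR : ∀ (a : K), ∀ T ∈ S, T ∘ₗ LinearMap.mulLeft F a ∈ S)
    (h1 : LinearMap.id ∈ S) {M : K →ₗ[F] K} {c : K} (hc : ∀ a : F, c ≠ algebraMap F K a)
    (h : c • M - M ∘ₗ LinearMap.mulLeft F c ∈ S) : M ∈ S := by
  classical
  have := Fintype.ofFinite K
  let L : Subalgebra F K :=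
    { carrier := {b | b • M - M ∘ₗ LinearMap.mulLeft F b ∈ S}
      mul_mem' := fun {a b} ha hb => by
        change _ ∈ S
        convert add_mem (hL a _ hb) (hR b _ ha) using 1
        ext z
        simp [mul_assoc, mul_sub]
      add_mem' := fun {a b} ha hb => by
        change _ ∈ S
        convert S.add_mem ha hb using 1
        ext z
        simp [add_mul]
        ring
      algebraMap_mem' := fun a => by
        change _ ∈ S
        convert zero_mem S using 1
        ext z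
        simp [← Algebra.smul_def] }
  have h2 : ∀ a : Kˣ, (a : K) • M ∘ₗ LinearMap.mulLeft F ((a⁻¹ : Kˣ) : K) - M ∈ S := fun a => by
    convert hR ((a⁻¹ : Kˣ) : K) _ ((subalgebra_top_of_prime hr L h hc).ge (Algebra.mem_top
      (x := (a : K)))) using 1
    ext z
    simp
  let N : K →ₗ[F] K := ∑ a : Kˣ, (a : K) • M ∘ₗ LinearMap.mulLeft F ((a⁻¹ : Kˣ) : K)
  have h3 : N = N 1 • LinearMap.id := by
    ext z
    by_cases hz : z = 0
    · simp [hz]
    simp only [N, LinearMap.sum_apply, LinearMap.smul_apply, LinearMap.comp_apply,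
      LinearMap.mulLeft_apply, smul_eq_mul, LinearMap.id_apply, Finset.sum_mul]
    refine (Fintype.sum_equiv (Equiv.mulLeft (Units.mk0 z hz)) _ _ fun a => ?_).symm
    simp only [Equiv.coe_mulLeft, Units.val_mul, Units.val_mk0, mul_inv_rev, Units.val_inv_eq_inv_val]
    rw [mul_assoc _ z⁻¹, inv_mul_cancel₀ hz]
    ring
  have h4 := sub_mem (sum_mem fun a (_ : a ∈ Finset.univ) => h2 a) (h3 ▸ hL (N 1) _ h1 : N ∈ S)
  convert h4 using 1
  rw [Finset.sum_sub_distrib, sub_sub_cancel_left, Finset.sum_const, Finset.card_univ,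
    Fintype.card_units, ← Nat.cast_smul_eq_nsmul K, Nat.cast_pred Fintype.card_pos,
    FiniteField.cast_card_eq_zero]
  simp

variable (K) in
/-- The images of the `K`-lines. -/
def LOrb (X : Subgroup (V ≃ₗ[F] V)) (U : Submodule F V) : Prop :=
  ∃ g ∈ X, ∃ v : V, v ≠ 0 ∧ ∀ w, w ∈ U ↔ g⁻¹ w ∈ K ∙ v

theorem LOrb.line {X : Subgroup (V ≃ₗ[F] V)} {v : V} (hv : v ≠ 0) :
    LOrb K X ((K ∙ v).restrictScalars F) := ⟨1, one_mem _, v, hv, fun _ => Iff.rfl⟩

omit [Algebra F K] [IsScalarTower F K V] in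
theorem LOrb.map {X : Subgroup (V ≃ₗ[F] V)} {U : Submodule F V} (hU : LOrb K X U)
    {g : V ≃ₗ[F] V} (hg : g ∈ X) : LOrb K X (U.map (g : V →ₗ[F] V)) := by
  obtain ⟨a, ha, v, hv, e⟩ := hU
  refine ⟨g * a, mul_mem hg ha, v, hv, fun w => ?_⟩
  rw [Submodule.mem_map_equiv, e, mul_inv_rev]
  rfl

theorem finrank_comap_line {u : V} (hu : u ≠ 0) (U : Submodule F V) :
    finrank F (U.comap ((LinearMap.toSpanSingleton K V u).restrictScalars F)) =
      finrank F ↥((K ∙ u).restrictScalars F ⊓ U) := by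
  rw [LinearEquiv.finrank_eq (Submodule.equivMapOfInjective
    ((LinearMap.toSpanSingleton K V u).restrictScalars F) (smul_left_injective K hu) _),
    Submodule.map_comap_eq]
  congr
  all_goals
    ext w
    simp [Submodule.mem_span_singleton]

theorem LOrb.finrank_eq {X : Subgroup (V ≃ₗ[F] V)} {U : Submodule F V} (hU : LOrb K X U) :
    finrank F U = finrank F K := by
  obtain ⟨a, ha, v, hv, e⟩ := hU
  have h1 : U = ((K ∙ v).restrictScalars F).map (a : V →ₗ[F] V) := by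
    ext w
    rw [Submodule.mem_map_equiv, e]
    rfl
  have h2 := finrank_comap_line (F := F) (K := K) hv ⊤
  rw [Submodule.comap_top, finrank_top, inf_top_eq] at h2
  rw [h1, LinearEquiv.finrank_map_eq, h2]

/-- A `K`-line `K u` and an image `D u + F y` of a `K`-line meeting it in a hyperplane. -/
structure Cfg (X : Subgroup (V ≃ₗ[F] V)) (u y : V) (x : K) (μ : Dual F K) (φ : Dual K V)
    (g : V ≃ₗ[F] V) (v : V) : Prop where
  ne : u ≠ 0
  mx : μ x = 1
  m1 : μ 1 = 0
  pu : φ u = 0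
  py : φ y = 1
  mem : g ∈ X
  iff : ∀ w, g⁻¹ w ∈ K ∙ v ↔ ∃ (δ : K) (c : F), μ δ = 0 ∧ w = δ • u + c • y

namespace FldL

variable {X : Subgroup (V ≃ₗ[F] V)} (h : FldL K X)
include h

theorem exists_cfg [Finite K] {m : V ≃ₗ[F] V} (hm : m ∈ X) (hm' : m ∉ SemiG F K V) :
    ∃ u y x μ φ g v, Cfg (K := K) X u y x μ φ g v := by
  have := h.fin
  have := h.finF
  have : FiniteDimensional F K := .of_finrank_pos h.prime.pos
  obtain ⟨v₀, k₀, h0⟩ : ∃ v, ∃ k : K, m (k • v) ∉ K ∙ m v := by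
    by_contra! hc
    exact hm' (mem_semiG_of_lines h.two hc)
  have hv₀ : v₀ ≠ 0 := by rintro rfl; simp at h0
  let s : Set (Submodule F V × Submodule F V) :=
    {p | LOrb K X p.1 ∧ LOrb K X p.2 ∧ p.1 ≠ p.2}
  have hp0 : (((K ∙ m v₀).restrictScalars F), ((K ∙ v₀).restrictScalars F).map (m : V →ₗ[F] V))
      ∈ s := ⟨LOrb.line (by simpa using hv₀), (LOrb.line hv₀).map hm, fun e => h0 (e.ge
        ⟨k₀ • v₀, Submodule.smul_mem _ _ (Submodule.mem_span_singleton_self v₀), rfl⟩)⟩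
  obtain ⟨⟨A, B⟩, ⟨⟨a, ha, u', hu', hA⟩, hB, hAB⟩, hmax⟩ := exists_max_nat (s := s)
    (fun p => finrank F ↥(p.1 ⊓ p.2)) (fun p _ => Submodule.finrank_le _) ⟨_, hp0⟩
  simp only at hA hB hAB hmax
  obtain ⟨U, hU⟩ : ∃ U, U = B.map (a⁻¹ : V ≃ₗ[F] V).toLinearMap := ⟨_, rfl⟩
  have hA' : A.map (a⁻¹ : V ≃ₗ[F] V).toLinearMap = (K ∙ u').restrictScalars F := by
    ext w
    rw [Submodule.mem_map_equiv, hA]
    simp [← LinearEquiv.coe_inv, inv_apply_apply]
  have h1 : finrank F ↥(A ⊓ B) = finrank F ↥((K ∙ u').restrictScalars F ⊓ U) := by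
    rw [← hA', hU, ← Submodule.map_inf _ (LinearEquiv.injective _), LinearEquiv.finrank_map_eq]
  have hne : (K ∙ u').restrictScalars F ≠ U := fun e => hAB (Submodule.map_injective_of_injective
    (f := (a⁻¹ : V ≃ₗ[F] V).toLinearMap) (LinearEquiv.injective _) (by rw [hA', e, hU]))
  replace hU : LOrb K X U := hU ▸ hB.map (inv_mem ha)
  rw [h1] at hmax
  obtain ⟨u, ⟨hu1, hu2⟩, hu⟩ : ∃ u ∈ (K ∙ u').restrictScalars F ⊓ U, u ≠ 0 := by
    refine Submodule.exists_mem_ne_zero_of_ne_bot fun e => ?_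
    have h2 := hmax _ hp0
    rw [e, finrank_bot, Nat.le_zero, Submodule.finrank_eq_zero] at h2
    exact hv₀ (by simpa using h2.le ⟨Submodule.mem_span_singleton_self (m v₀),
      v₀, Submodule.mem_span_singleton_self v₀, rfl⟩)
  have hs : K ∙ u = K ∙ u' := by
    obtain ⟨k, rfl⟩ := Submodule.mem_span_singleton.1 (show u ∈ K ∙ u' from hu1)
    exact Submodule.span_singleton_smul_eq (left_ne_zero_of_smul hu).isUnit _
  rw [← hs] at hmax hne
  clear h1 hA' hA hB hAB hu1 hp0 h0 hv₀ hu' ha hs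
  let D := U.comap ((LinearMap.toSpanSingleton K V u).restrictScalars F)
  have hD : ∀ k, k ∈ D ↔ k • u ∈ U := fun _ => Iff.rfl
  have hlt : ¬ U ≤ (K ∙ u).restrictScalars F := fun e => hne
    (Submodule.eq_of_le_of_finrank_eq e (by rw [hU.finrank_eq, (LOrb.line (X := X) hu).finrank_eq])).symm
  have hD1 : D ≠ ⊤ := fun e => hne (Submodule.eq_of_le_of_finrank_eq (fun w hw => by
    obtain ⟨k, rfl⟩ := Submodule.mem_span_singleton.1 hw
    exact (hD k).1 (e.ge Submodule.mem_top)) (by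
      rw [hU.finrank_eq, (LOrb.line (X := X) hu).finrank_eq]))
  have hdi : ∀ φ : Dual K V, φ u = 0 → ∀ y ∈ U, y ∉ K ∙ u → φ y ∈ D → ∀ z ∈ U, φ z ∈ D := by
    intro φ e y hy hy' hφ z hz
    by_cases h2 : U.map ((tvE e).restrictScalars F : V →ₗ[F] V) = U
    · have := sub_mem (h2.le ⟨z, hz, rfl⟩) hz
      change z + φ z • u - z ∈ U at this
      rwa [add_sub_cancel_left] at this
    have h3 : (K ∙ u).restrictScalars F ⊓ U =
        U.map ((tvE e).restrictScalars F : V →ₗ[F] V) ⊓ U :=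
      Submodule.eq_of_le_of_finrank_le (fun w hw => ⟨⟨w, hw.2, by
        obtain ⟨k, rfl⟩ := Submodule.mem_span_singleton.1 hw.1
        simp [tvE_apply, e]⟩, hw.2⟩) (hmax (_, _) ⟨hU.map (h.tv_mem e), hU, h2⟩)
    have h4 : y + φ y • u ∈ K ∙ u := (h3.ge ⟨⟨y, hy, rfl⟩, add_mem hy hφ⟩).1
    exact absurd ((Submodule.add_mem_iff_left _ (Submodule.smul_mem _ _
      (Submodule.mem_span_singleton_self u))).1 h4) hy'
  obtain ⟨y, hy, hy'⟩ := SetLike.not_le_iff_exists.1 hlt
  obtain ⟨φ, h2, h3⟩ := exists_dual_one (show y ∉ K ∙ u from hy')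
  have h4 : φ u = 0 := h3 u (Submodule.mem_span_singleton_self _)
  have h5 : ∀ z ∈ U, ∃ c : F, z - c • y ∈ K ∙ u := fun z hz => by
    obtain ⟨c, hc⟩ : ∃ c : F, φ z = algebraMap F K c := by
      by_contra! hc
      let L : Subalgebra F K :=
        { carrier := {b | ∀ δ ∈ D, δ * b ∈ D}
          mul_mem' := fun {a b} ha hb δ hδ => by rw [← mul_assoc]; exact hb _ (ha δ hδ)
          add_mem' := fun {a b} ha hb δ hδ => by rw [mul_add]; exact add_mem (ha δ hδ) (hb δ hδ)
          algebraMap_mem' := fun a δ hδ => by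
            rw [mul_comm, ← Algebra.smul_def]; exact D.smul_mem a hδ }
      have := subalgebra_top_of_prime h.prime L (c := φ z) (fun δ hδ =>
        hdi (δ • φ) (by simp [h4]) y hy hy' (by simpa [h2] using hδ) z hz) hc
      exact hD1 (eq_top_iff.2 fun k _ => by
        simpa using this.ge (Algebra.mem_top (x := k)) 1 ((hD 1).2 (by simpa using hu2)))
    refine ⟨c, by_contra fun h6 => hD1 (eq_top_iff.2 fun k _ => ?_)⟩
    simpa [h2] using hdi (k • φ) (by simp [h4]) _ (sub_mem hz (U.smul_mem c hy)) h6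
      (by simp [hc, h2, Algebra.smul_def]) y hy
  obtain ⟨x, -, hx⟩ := SetLike.not_le_iff_exists.1 (mt eq_top_iff.2 hD1)
  obtain ⟨μ, h6, h7⟩ := exists_dual_one hx
  have h8 : D = LinearMap.ker μ := by
    refine Submodule.eq_of_le_of_finrank_le h7 ?_
    have h8 : U ≤ ((K ∙ u).restrictScalars F ⊓ U) ⊔ F ∙ y := fun z hz => by
      obtain ⟨c, hc⟩ := h5 z hz
      rw [← sub_add_cancel z (c • y)]
      exact add_mem (Submodule.mem_sup_left ⟨hc, sub_mem hz (U.smul_mem c hy)⟩)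
        (Submodule.mem_sup_right (Submodule.smul_mem _ c (Submodule.mem_span_singleton_self y)))
    have h9 := (Submodule.finrank_mono h8).trans (Submodule.finrank_add_le_finrank_add_finrank _ _)
    rw [← finrank_comap_line hu, hU.finrank_eq, finrank_span_singleton (by rintro rfl; simp at h2)]
      at h9
    have h10 := Submodule.finrank_lt (s := LinearMap.ker μ) fun e => by
      simpa [h6] using e.ge (Submodule.mem_top (x := x))
    change _ ≤ finrank F D + 1 at h9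
    omega
  obtain ⟨g, hg, v, -, hv⟩ := hU
  refine ⟨u, y, x, μ, φ, g, v, hu, h6, h7 1 ((hD 1).2 (by simpa using hu2)), h4, h2, hg, fun w => ?_⟩
  rw [← hv]
  refine ⟨fun hw => ?_, ?_⟩
  · obtain ⟨c, hc⟩ := h5 w hw
    obtain ⟨δ, e⟩ := Submodule.mem_span_singleton.1 hc
    exact ⟨δ, c, h7 δ ((hD δ).2 (e ▸ sub_mem hw (U.smul_mem c hy))), by rw [e, sub_add_cancel]⟩
  · rintro ⟨δ, c, e, rfl⟩
    exact add_mem ((hD δ).1 (h8.ge e)) (U.smul_mem c hy)

end FldL

/-- Unipotent elements belonging to `D u + F y`. -/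
structure QE (X : Subgroup (V ≃ₗ[F] V)) (u y : V) (μ : Dual F K) (E : End F V) : Prop where
  un : Un X E
  im : ∀ w, ∃ (δ : K) (c : F), μ δ = 0 ∧ E w = δ • u + c • y
  ku : ∀ δ : K, μ δ = 0 → E (δ • u) = 0
  ky : E y = 0

namespace Cfg

variable {X : Subgroup (V ≃ₗ[F] V)} {u y : V} {x : K} {μ : Dual F K} {φ : Dual K V}
  {g : V ≃ₗ[F] V} {v : V} (c : Cfg X u y x μ φ g v) (h : FldL K X)
include c

theorem phi (δ : K) (a : F) : φ (δ • u + a • y) = algebraMap F K a := by
  simp [c.pu, c.py, Algebra.smul_def]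

theorem smul_u {E : End F V} (hE : QE X u y μ E) {z : V} (e : E (x • u) = z) (k : K) :
    E (k • u) = μ k • z := by
  have := hE.ku (k - μ k • x) (by simp [c.mx])
  rwa [sub_smul, map_sub, sub_eq_zero, smul_assoc, E.map_smul, e] at this

theorem notMem : g⁻¹ (x • u) ∉ K ∙ v := fun e => by
  obtain ⟨δ, a, h1, h2⟩ := (c.iff _).1 e
  have h3 := c.phi δ a
  rw [← h2, map_smul, c.pu, smul_zero, eq_comm, map_eq_zero] at h3
  rw [h3, zero_smul, add_zero] at h2
  have := c.mx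
  rw [smul_left_injective K c.ne h2, h1] at this
  exact zero_ne_one this

include h

theorem qe {ψ : Dual K V} (e : ψ v = 0) :
    ∃ E, QE X u y μ E ∧ ∀ w, E (g w) = g (ψ w • v) := by
  have h1 : ∀ w, g⁻¹ w ∈ K ∙ v → ψ (g⁻¹ w) = 0 := fun w hw => by
    obtain ⟨k, hk⟩ := Submodule.mem_span_singleton.1 hw
    rw [← hk, map_smul, e, smul_zero]
  refine ⟨_, ⟨(h.un_tv e).conj c.mem, fun w => (c.iff _).1 ?_, fun δ hδ => ?_, ?_⟩, fun w => ?_⟩
  · change g⁻¹ (g (ψ (g⁻¹ w) • v)) ∈ _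
    rw [inv_apply_apply]
    exact Submodule.smul_mem _ _ (Submodule.mem_span_singleton_self v)
  · change g (ψ (g⁻¹ _) • v) = 0
    rw [h1 _ ((c.iff _).2 ⟨δ, 0, hδ, by simp⟩), zero_smul, map_zero]
  · change g (ψ (g⁻¹ _) • v) = 0
    rw [h1 _ ((c.iff _).2 ⟨0, 1, by simp, by simp⟩), zero_smul, map_zero]
  · change g (ψ (g⁻¹ _) • v) = _
    rw [inv_apply_apply]

theorem ex1 {δ : K} (hδ : μ δ = 0) (a : F) : ∃ E, QE X u y μ E ∧ E (x • u) = δ • u + a • y := by
  have := h.fin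
  obtain ⟨k, hk⟩ := Submodule.mem_span_singleton.1 ((c.iff _).2 ⟨δ, a, hδ, rfl⟩)
  obtain ⟨ψ, h1, h2⟩ := exists_dual_one c.notMem
  obtain ⟨E, h3, h4⟩ := c.qe h (ψ := k • ψ) (by simp [h2 v (Submodule.mem_span_singleton_self v)])
  refine ⟨E, h3, ?_⟩
  have := h4 (g⁻¹ (x • u))
  rwa [apply_inv_apply, LinearMap.smul_apply, h1, smul_eq_mul, mul_one, hk, apply_inv_apply] at this

theorem comm {E : End F V} (hE : QE X u y μ E) {k k' : K} (hk : μ k = 0)
    (e : E (x • u) = k' • u) : Un X (rt (k • φ.restrictScalars F ∘ₗ E - k' •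
      ((Algebra.linearMap F K ∘ₗ μ) ∘ₗ LinearMap.mulLeft F k) ∘ₗ φ.restrictScalars F) u) := by
  refine ((h.un_tv (φ := k • φ) (u := u) (by simp [c.pu])).comm hE.un ?_ ?_).congr fun w => ?_
  · ext w
    simp [c.smul_u hE e, c.pu]
  · ext w
    obtain ⟨δ, a, -, h1⟩ := hE.im w
    simp only [End.mul_apply, LinearMap.smulRight_apply, LinearMap.restrictScalars_apply,
      LinearMap.smul_apply, h1, c.phi, c.smul_u hE e, smul_eq_mul]
    rw [mul_comm, ← Algebra.smul_def, map_smul, hk]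
    simp
  · simp [c.smul_u hE e, sub_smul, mul_comm k', ← Algebra.smul_def]

variable [Finite F] [Finite K]

theorem sl_le_of_three (h3 : 3 ≤ finrank K V) : SLG F V ≤ X := by
  have := h.fin
  obtain ⟨z, hz⟩ : ∃ z, z ∉ Submodule.span K {v, g⁻¹ (x • u)} := by
    classical
    by_contra! hc
    have := (finrank_span_finset_le_card (R := K) {v, g⁻¹ (x • u)}).trans Finset.card_le_two
    rw [Set.finrank, Finset.coe_pair, Submodule.eq_top_iff'.2 hc, finrank_top] at this
    omega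
  obtain ⟨ψ, h1, h2⟩ := exists_dual_one hz
  obtain ⟨E, h4, h5⟩ := c.qe h (h2 v (Submodule.subset_span (by simp)))
  have h6 := h5 (g⁻¹ (x • u))
  rw [apply_inv_apply, h2 _ (Submodule.subset_span (by simp)), zero_smul, map_zero] at h6
  obtain ⟨k, hk⟩ := Submodule.mem_span_singleton.1 ((c.iff y).2 ⟨0, 1, by simp, by simp⟩)
  have h7 := h5 (k • z)
  rw [ψ.map_smul, h1, smul_eq_mul, mul_one, hk, apply_inv_apply] at h7
  obtain ⟨ν, hν, -⟩ := exists_dual_one (W := (⊥ : Submodule F K)) (v := 1) (by simp)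
  refine h.sl_le (l := ν ∘ₗ φ.restrictScalars F ∘ₗ E) ((c.comm h h4 c.m1 (k' := 0)
    (by rw [h6, zero_smul])).congr fun w => ?_) (fun e => ?_) c.ne
  · obtain ⟨δ, a, -, h1⟩ := h4.im w
    simp [h1, c.pu, c.py, hν]
  · simpa [h7, c.py, hν] using LinearMap.congr_fun e (g (k • z))

theorem sl_le_of_rank (h3 : 3 ≤ finrank F K) : SLG F V ≤ X := by
  have : FiniteDimensional F K := .of_finrank_pos h.prime.pos
  obtain ⟨k, hk, hk'⟩ : ∃ k, μ k = 0 ∧ ∀ a : F, k ≠ algebraMap F K a := by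
    by_contra! hc
    have h1 : LinearMap.ker μ ≤ F ∙ (1 : K) := fun k hk => by
      obtain ⟨a, rfl⟩ := hc k hk
      exact Submodule.mem_span_singleton.2 ⟨a, (Algebra.algebraMap_eq_smul_one a).symm⟩
    have h2 := Submodule.finrank_mono h1
    have h4 := LinearMap.finrank_range_add_finrank_ker μ
    have h5 := Submodule.finrank_le (LinearMap.range μ)
    rw [finrank_span_singleton one_ne_zero] at h2
    rw [finrank_self] at h5
    omega
  obtain ⟨E, hE, e⟩ := c.ex1 h c.m1 0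
  rw [zero_smul, add_zero] at e
  let S : AddSubgroup (K →ₗ[F] K) :=
    { carrier := {T | Un X (rt (T ∘ₗ φ.restrictScalars F) u)}
      add_mem' := fun {a b} ha hb =>
        (Un.add ha hb (by ext; simp [c.pu]) (by ext; simp [c.pu])).congr fun v => by
          simp [add_smul]
      zero_mem' := Un.zero.congr fun v => by simp
      neg_mem' := fun {a} ha => (Un.neg ha).congr fun v => by simp }
  have h1 : Algebra.linearMap F K ∘ₗ μ ∈ S := by
    refine bimod_mem h.prime S (fun a T hT => h.un_smul c.ne a (fun k => by simp [c.pu]) hT)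
      (fun a T hT => h.un_comp c.pu a hT) (h.un_tv c.pu) hk' ?_
    have h2 : ∀ k : K, φ (E (k • u)) = 0 := fun k => by simp [c.smul_u hE e, c.pu]
    have h3 : φ (E u) = 0 := by simpa using h2 1
    refine ((c.comm h hE hk e).sub (h.un_smul c.ne k (fun k => by simp [c.pu, h2])
      (c.comm h hE c.m1 e)) (by ext; simp [c.pu, h2]) (by ext; simp [c.pu, h2])).congr fun w => ?_
    simp only [LinearMap.sub_apply, LinearMap.smulRight_apply, LinearMap.smul_apply,
      LinearMap.comp_apply, LinearMap.mulLeft_apply, one_mul]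
    module
  refine h.sl_le (l := μ ∘ₗ φ.restrictScalars F) (Un.congr h1 fun w => by simp) (fun e => ?_) c.ne
  simpa [c.py, c.mx] using LinearMap.congr_fun e (x • y)

end Cfg

end CF.MaxSub
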