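/-
Maximality of the field extension subgroups: the case `ΓL_2(q²) < SL_4(q)` and the conclusion.
-/
import Cfsg.Agent.MaxSub.C3B
import Cfsg.Agent.MaxSub.ProperL

set_option autoImplicit false

namespace CF.MaxSub

open Module Geom

section Abstract

variable {F K V : Type*} [Field F] [Field K] [Algebra F K] [AddCommGroup V] [Module F V]
  [Module K V] [IsScalarTower F K V]

namespace Cfg

variable {X : Subgroup (V ≃ₗ[F] V)} {u y : V} {x : K} {μ : Dual F K} {φ : Dual K V}
  {g : V ≃ₗ[F] V} {v : V} (c : Cfg X u y x μ φ g v) (h : FldL K X)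
include c

theorem exists_nu (hr : finrank F K = 2) : ∃ ν : Dual F K, ν 1 = 1 ∧ ν x = 0 ∧
    ∀ z, z = algebraMap F K (ν z) + μ z • x := by
  have : FiniteDimensional F K := .of_finrank_pos (by omega)
  obtain ⟨ν, h1, h2⟩ := exists_dual_one (W := F ∙ x) (v := 1) fun e => by
    obtain ⟨a, ha⟩ := Submodule.mem_span_singleton.1 e
    have h1 := c.m1
    rw [← ha, map_smul, c.mx, smul_eq_mul, mul_one] at h1
    simp [h1] at ha
  have h3 := h2 x (Submodule.mem_span_singleton_self x)
  have h4 : F ∙ (1 : K) = LinearMap.ker μ := Submodule.eq_of_le_of_finrank_le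
    ((Submodule.span_singleton_le_iff_mem _ _).2 c.m1) (by
      have := Submodule.finrank_lt (s := LinearMap.ker μ) fun e => by
        simpa [c.mx] using e.ge (Submodule.mem_top (x := x))
      rw [finrank_span_singleton one_ne_zero]
      omega)
  refine ⟨ν, h1, h3, fun z => ?_⟩
  obtain ⟨a, ha⟩ := Submodule.mem_span_singleton.1 (h4.ge (show z - μ z • x ∈ _ by simp [c.mx]))
  have h5 := congrArg ν ha
  simp only [map_smul, h1, smul_eq_mul, mul_one, map_sub, h3, mul_zero, sub_zero] at h5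
  rw [← h5, Algebra.algebraMap_eq_smul_one, ha, sub_add_cancel]

theorem exists_psi (hd : finrank K V = 2) : ∃ ψ : Dual K V, ψ u = 1 ∧ ψ y = 0 ∧
    ∀ w, w = ψ w • u + φ w • y := by
  have : FiniteDimensional K V := .of_finrank_pos (by omega)
  obtain ⟨ψ, h1, h2⟩ := exists_dual_one (W := K ∙ y) (v := u) fun e => by
    obtain ⟨a, ha⟩ := Submodule.mem_span_singleton.1 e
    have h1 := c.pu
    rw [← ha, map_smul, c.py, smul_eq_mul, mul_one] at h1
    exact c.ne (by simpa [h1] using ha.symm)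
  have h3 := h2 y (Submodule.mem_span_singleton_self y)
  have h4 : K ∙ u = LinearMap.ker φ := Submodule.eq_of_le_of_finrank_le
    ((Submodule.span_singleton_le_iff_mem _ _).2 c.pu) (by
      have := Submodule.finrank_lt (s := LinearMap.ker φ) fun e => by
        simpa [c.py] using e.ge (Submodule.mem_top (x := y))
      rw [finrank_span_singleton c.ne]
      omega)
  refine ⟨ψ, h1, h3, fun z => ?_⟩
  obtain ⟨a, ha⟩ := Submodule.mem_span_singleton.1 (h4.ge (show z - φ z • y ∈ _ by simp [c.py]))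
  have h5 := congrArg ψ ha
  simp only [map_smul, h1, smul_eq_mul, mul_one, map_sub, h3, mul_zero, sub_zero] at h5
  rw [← h5, ha, sub_add_cancel]

variable [Finite F] [Finite K]
include h

theorem eq_of_not_le (hr : finrank F K = 2) (hX : ¬ SLG F V ≤ X) {a : F} (ha : a ≠ 0) :
    (2 : F) = 0 ∧ a = μ (x * x) := by
  obtain ⟨ν, h1, h2, h3⟩ := c.exists_nu hr
  obtain ⟨E, hE, e⟩ := c.ex1 h (δ := algebraMap F K a)
    (by rw [Algebra.algebraMap_eq_smul_one, map_smul, c.m1, smul_zero]) 0
  rw [zero_smul, add_zero] at e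
  have h4 : ∀ w, φ (E w) = algebraMap F K (ν (φ (E w))) := fun w => by
    obtain ⟨δ, b, -, h5⟩ := hE.im w
    rw [h5, c.phi, Algebra.algebraMap_eq_smul_one b, map_smul, h1, smul_eq_mul, mul_one,
      Algebra.algebraMap_eq_smul_one]
  have h5 : ∀ w, φ (E w) = algebraMap F K (a * μ (φ w)) := by
    by_contra! hc
    obtain ⟨w, hw⟩ := hc
    refine hX (h.sl_le (l := ν ∘ₗ φ.restrictScalars F ∘ₗ E - a • μ ∘ₗ φ.restrictScalars F)
      ((c.comm h hE c.m1 e).congr fun w => ?_) (fun e => hw ?_) c.ne)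
    · simp only [LinearMap.smulRight_apply, LinearMap.sub_apply, LinearMap.smul_apply,
        LinearMap.comp_apply, LinearMap.restrictScalars_apply, LinearMap.mulLeft_apply,
        Algebra.linearMap_apply]
      rw [← algebraMap_smul K (_ - _ : F), map_sub, ← h4, smul_eq_mul, smul_eq_mul, smul_eq_mul,
        one_mul, one_mul, map_mul]
    · rw [h4, ← sub_eq_zero, ← map_sub, map_eq_zero]
      simpa using LinearMap.congr_fun e w
  let β : F → K →ₗ[F] K := fun b => LinearMap.id + b • Algebra.linearMap F K ∘ₗ μ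
  have hβ : ∀ b z, β b z = z + algebraMap F K (b * μ z) := fun b z => by
    simp [β, Algebra.smul_def]
  have hμ : ∀ b, μ (algebraMap F K b) = 0 := fun b => by
    rw [Algebra.algebraMap_eq_smul_one, map_smul, c.m1, smul_zero]
  have h6 : Un X (rt ((β a ∘ₗ LinearMap.mulLeft F x ∘ₗ β (-a)) ∘ₗ φ.restrictScalars F) u) :=
    (h.un_tv (φ := x • φ) (u := u) (by simp [c.pu])).of_conj hE.un.unip_mem fun w => by
      simp only [LinearMap.smulRight_apply, LinearMap.comp_apply, LinearMap.restrictScalars_apply,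
        unip_apply, map_add, h5, hβ, hμ, LinearMap.mulLeft_apply, LinearMap.smul_apply, c.smul_u hE e,
        smul_eq_mul, neg_mul, map_neg, mul_zero, map_zero, add_zero, neg_zero, ← map_add (β a),
        ← mul_add, neg_add_cancel_right]
      module
  have h7 := h6.sub (h.un_tv (φ := (x + algebraMap F K a) • φ) (u := u) (by simp [c.pu]))
    (by ext; simp [c.pu]) (by ext; simp [c.pu])
  have h8 : algebraMap F K a * (algebraMap F K (μ (x * x) - a) - 2 * x) = 0 := by
    by_contra h8
    refine hX (h.sl_le (l := μ ∘ₗ φ.restrictScalars F) (h7.congr fun w => ?_) (fun e => ?_)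
      (smul_ne_zero h8 c.ne))
    · simp only [LinearMap.smulRight_apply, LinearMap.sub_apply, LinearMap.smul_apply,
        LinearMap.comp_apply, LinearMap.restrictScalars_apply, LinearMap.mulLeft_apply, hβ]
      generalize φ w = z
      have h9 : μ (x * (z + algebraMap F K (-a * μ z))) = ν z + μ z * μ (x * x) - a * μ z := by
        conv_lhs => rw [h3 z]
        simp only [map_add, hμ, map_smul, c.mx, mul_add, mul_comm x (algebraMap F K _),
          ← Algebra.smul_def, mul_smul_comm, smul_eq_mul]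
        ring
      rw [h9]
      have h10 := h3 z
      rw [Algebra.smul_def] at h10
      rw [← algebraMap_smul K (μ z), smul_smul, ← sub_smul]
      congr 1
      simp only [map_mul, map_add, map_sub, map_neg, smul_eq_mul]
      linear_combination (-algebraMap F K a) * h10
    · simpa [c.py, c.mx] using LinearMap.congr_fun e (x • y)
  rw [mul_eq_zero_iff_left (by simpa using ha), sub_eq_zero] at h8
  have h9 := congrArg μ h8
  rw [hμ, two_mul, map_add, c.mx, one_add_one_eq_two] at h9
  refine ⟨h9.symm, ?_⟩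
  rw [show (2 : K) = algebraMap F K 2 from (map_ofNat _ 2).symm, ← h9, map_zero, zero_mul,
    map_eq_zero, sub_eq_zero] at h8
  exact h8.symm

theorem sl_le_of_two (hr : finrank F K = 2) (hd : finrank K V = 2) : SLG F V ≤ X := by
  by_contra hX
  obtain ⟨ν, n1, nx, hν⟩ := c.exists_nu hr
  obtain ⟨ψ, pu, py, hψ⟩ := c.exists_psi hd
  obtain ⟨h2, ht⟩ := c.eq_of_not_le h hr hX one_ne_zero
  have hF : ∀ a : F, a = 0 ∨ a = 1 := fun a => or_iff_not_imp_left.2 fun ha =>
    (c.eq_of_not_le h hr hX ha).2.trans ht.symm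
  have hK : (2 : K) = 0 := by rw [show (2 : K) = algebraMap F K 2 from (map_ofNat _ 2).symm, h2,
    map_zero]
  have m1 := c.m1
  have mx := c.mx
  have fu := c.pu
  have fy := c.py
  have x0 : x ≠ 0 := by rintro rfl; simp at mx
  have hx : x * x = x + 1 := by
    have := hν (x * x)
    rw [← ht, one_smul] at this
    rcases hF (ν (x * x)) with e | e <;> rw [e] at this
    · rw [map_zero, zero_add, mul_eq_left₀ x0] at this
      simp [this, m1] at mx
    · rw [this, map_one, add_comm]
  have hS : ∀ a ∈ SemiG F K V, a ∈ X := fun a ha => h.mem a ha (mem_SLG.2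
    ((hF _).resolve_left (LinearEquiv.isUnit_det' a).ne_zero))
  have hext : ∀ A B : End F V, A u = B u → A (x • u) = B (x • u) → A y = B y →
      A (x • y) = B (x • y) → ∀ w, A w = B w := fun A B e1 e2 e3 e4 w => by
    rw [hψ w, hν (ψ w), hν (φ w)]
    simp [add_smul, e1, e2, e3, e4]
  have hxx : ∀ w : V, x • x • w = x • w + w := fun w => by rw [smul_smul, hx, add_smul, one_smul]
  have hμ : ∀ k z, algebraMap F K (μ (k * z)) =
      (k + algebraMap F K (μ k)) * (z + algebraMap F K (μ z)) - k * z := fun k z => by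
    have e1 := hν k
    have e2 := hν z
    have : μ (k * z) = ν k * μ z + μ k * ν z + μ k * μ z := by
      conv_lhs => rw [e1, e2]
      simp only [add_mul, mul_add, ← map_mul, ← Algebra.smul_def, mul_smul_comm, smul_mul_assoc,
        mul_comm x (algebraMap F K _), Algebra.algebraMap_eq_smul_one, map_add, map_smul, hx, m1, mx,
        one_mul, mul_one, smul_eq_mul]
      ring
    rw [Algebra.smul_def] at e1 e2
    rw [this]
    simp only [map_add, map_mul]
    linear_combination (-algebraMap F K (μ z)) * e1 - algebraMap F K (μ k) * e2 -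
      algebraMap F K (μ k) * algebraMap F K (μ z) * x * hK
  let S : End F V := (μ ∘ₗ ψ.restrictScalars F).smulRight u + (μ ∘ₗ φ.restrictScalars F).smulRight y
  have hS1 : S * S = 0 := by ext; simp [S, pu, py, fu, fy, m1]
  have hS2 : unip S hS1 ∈ X := hS _ (mem_semiG (hV := nontrivial_of_ne _ _ c.ne) fun k =>
    ⟨k + algebraMap F K (μ k), fun w => by
      simp only [unip_apply, S, LinearMap.add_apply, LinearMap.smulRight_apply, LinearMap.comp_apply,
        LinearMap.restrictScalars_apply, map_smul, smul_eq_mul, ← algebraMap_smul K (μ _), hμ]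
      generalize ψ w = a, φ w = b, hψ w = e
      rw [e]
      module⟩)
  have hS3 : Un X S := ⟨hS1, _, hS2, rfl⟩
  obtain ⟨E, hE, e⟩ := c.ex1 h (δ := 0) (map_zero μ) 1
  rw [zero_smul, zero_add, one_smul] at e
  have Eu : E u = 0 := by simpa using hE.ku 1 m1
  have Ey := hE.ky
  obtain ⟨δ, b, h3, e'⟩ := hE.im (x • y)
  rw [hν δ, h3, zero_smul, add_zero] at e'
  have y0 : y ≠ 0 := by rintro rfl; simp at fy
  rcases hF (ν δ) with h4 | h4 <;> rw [h4] at e'
  · refine hX (h.sl_le (l := μ ∘ₗ ψ.restrictScalars F + b • μ ∘ₗ φ.restrictScalars F)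
      (hE.un.congr (hext _ _ ?_ ?_ ?_ ?_)) (fun e => ?_) y0)
    iterate 4 simp [m1, mx, fu, fy, pu, py, n1, nx, e, e', Eu, Ey]
    simpa [m1, mx, fu, fy, pu, py] using LinearMap.congr_fun e (x • u)
  have hES : E * S = 0 := by ext; simp [S, m1, mx, fu, fy, pu, py, n1, nx, e, e', Eu, Ey]
  have hSE : S * E = 0 := LinearMap.ext (hext _ _ (by simp [m1, mx, fu, fy, pu, py, n1, nx, e, e', Eu, Ey]) (by simp [S, m1, mx, fu, fy, pu, py, n1, nx, e, e', Eu, Ey]) (by simp [m1, mx, fu, fy, pu, py, n1, nx, e, e', Eu, Ey])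
    (by simp [S, m1, mx, fu, fy, pu, py, n1, nx, e, e', Eu, Ey]))
  rcases hF b with rfl | rfl
  · refine hX (h.sl_le (l := μ ∘ₗ ψ.restrictScalars F + μ ∘ₗ φ.restrictScalars F) (u := u + y)
      ((hE.un.add hS3 hES hSE).congr (hext _ _ ?_ ?_ ?_ ?_)) (fun e => ?_) fun e => ?_)
    iterate 4 simp [S, add_comm, m1, mx, fu, fy, pu, py, n1, nx, e, e', Eu, Ey]
    · simpa [m1, mx, fu, fy, pu, py] using LinearMap.congr_fun e (x • u)
    · simpa [m1, mx, fu, fy, pu, py] using congrArg φ e
  let z := (LinearEquiv.smulOfNeZero K V x x0).restrictScalars F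
  have hz : ∀ w, z w = x • w := fun _ => rfl
  let l : Dual F V := μ ∘ₗ ψ.restrictScalars F + ν ∘ₗ φ.restrictScalars F
  let χ : Dual K V := (x + 1) • ψ + x • φ
  have h5 : χ (u + x • y) = 0 := by
    simp [χ, fu, fy, pu, py]
    linear_combination (x + 1) * hK + hx
  have h6 : ∀ k : K, l (k • (u + x • y)) = 0 := fun k => by
    have : ν (k * x) = μ k := by
      conv_lhs => rw [hν k]
      simp [add_mul, ← Algebra.smul_def, hx, n1, nx]
    simp [l, fu, fy, pu, py, this]
    linear_combination μ k * h2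
  have h7 : Un X (l.smulRight ((x + 1) • (u + x • y)) + rt (χ.restrictScalars F) (u + x • y)) := by
    refine hS3.of_conj (g := unip S hS1 * unip E hE.un.sq * z)
      (mul_mem (mul_mem hS2 hE.un.unip_mem) (hS _ (restrict_mem_semiG _)))
      (hext ((l.smulRight _ + rt _ _) * (unip S hS1 * unip E hE.un.sq * z).toLinearMap)
        ((unip S hS1 * unip E hE.un.sq * z).toLinearMap * S) ?_ ?_ ?_ ?_)
    all_goals
      simp [unip_apply, S, l, χ, hz, hxx, hx, m1, mx, fu, fy, pu, py, n1, nx, e, e', Eu, Ey]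
      simp only [← algebraMap_smul K (_ + 1 : F), map_add, map_one]
      clear * - hx hK
      match_scalars <;> grind
  refine hX (h.sl_le (l := l) (u := (x + 1) • (u + x • y)) ((h7.sub (h.un_tv h5) ?_ ?_).congr
    fun w => by simp) (fun e => ?_) (smul_ne_zero (fun e => ?_) fun e => ?_))
  · ext
    simp [h5, h6, -smul_add]
  · ext
    simp [h5, -smul_add]
  · simpa [l, mx, fu, pu] using LinearMap.congr_fun e (x • u)
  · exact x0 (by simpa [e] using hx)
  · simpa [m1, mx, fu, fy, pu, py] using congrArg ψ e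

end Cfg

theorem FldL.sl_le_of_notMem [Finite F] [Finite K] {X : Subgroup (V ≃ₗ[F] V)} (h : FldL K X)
    {m : V ≃ₗ[F] V} (hm : m ∈ X) (hm' : m ∉ SemiG F K V) : SLG F V ≤ X := by
  obtain ⟨u, y, x, μ, φ, g, v, c⟩ := h.exists_cfg hm hm'
  have h1 := h.two
  have h2 := h.prime.two_le
  by_cases h3 : 3 ≤ finrank K V
  · exact c.sl_le_of_three h h3
  by_cases h4 : 3 ≤ finrank F K
  · exact c.sl_le_of_rank h h4
  exact c.sl_le_of_two h (by omega) (by omega)

theorem exists_semiG_det [Finite K] [FiniteDimensional K V] [Nontrivial V] (a : Fˣ) :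
    ∃ g ∈ SemiG F K V, LinearEquiv.det g = a := by
  have : Finite F := Finite.of_injective _ (algebraMap F K).injective
  have : FiniteDimensional F K := Module.Finite.of_finite
  obtain ⟨b, hb⟩ := FiniteField.norm_surjective F K a
  obtain ⟨w, hw⟩ := exists_ne (0 : V)
  obtain ⟨φ, h1, -⟩ := exists_dual_one (W := (⊥ : Submodule K V)) (v := w) (by simpa using hw)
  have h2 : 1 + ((b - 1) • φ) w = b := by simp [h1]
  have h3 : IsUnit (1 + ((b - 1) • φ) w) := by
    rw [h2, isUnit_iff_ne_zero, ← Algebra.norm_ne_zero_iff (R := F), hb]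
    exact a.ne_zero
  refine ⟨_, restrict_mem_semiG (LinearEquiv.dilatransvection h3), Units.ext ?_⟩
  rw [LinearEquiv.coe_det, det_restrict, LinearEquiv.dilatransvection.coe_toLinearMap,
    LinearMap.transvection.det, h2, hb]

end Abstract

open Matrix Cfsg Cfsg.Geo
open scoped MatrixGroups

variable {ι : Type} [Fintype ι] [DecidableEq ι] {F : Type*} [Field F]

theorem isField_of_fieldSubalgebra [Nonempty ι] {r : ℕ} {K : Subalgebra F (Matrix ι ι F)}
    (hK : IsFieldSubalgebra r K) : IsField K :=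
  { exists_pair_ne := exists_pair_ne K
    mul_comm := fun x y => Subtype.ext (hK.comm _ x.2 _ y.2)
    mul_inv_cancel := fun {x} hx => by
      obtain ⟨y, hy, e⟩ := hK.inv x x.2 fun h => hx (Subtype.ext h)
      exact ⟨⟨y, hy⟩, Subtype.ext e⟩ }

theorem mem_subalgebraNormalizer_iff_semiG {K : Subalgebra F (Matrix ι ι F)} (hF : IsField K)
    (g : GL ι F) : g ∈ subalgebraNormalizer K ↔
      Geom.glEquiv ι F g ∈ (letI := hF.toField; SemiG F K (ι → F)) := by
  constructor
  · refine fun hg => ⟨fun k => ⟨⟨_, (hg k).1 k.2⟩, fun v => ?_⟩, fun k =>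
      ⟨⟨_, (inv_mem hg k).1 k.2⟩, fun v => ?_⟩⟩
    · change (g : Matrix ι ι F) *ᵥ (k : Matrix ι ι F) *ᵥ v = (_ * _ * _ : Matrix ι ι F) *ᵥ _
      simp only [← mulVec_mulVec, Geom.glEquiv_apply, inv_mulVec_mulVec]
    · change (g : Matrix ι ι F) *ᵥ (_ * _ * _ : Matrix ι ι F) *ᵥ v = (k : Matrix ι ι F) *ᵥ _
      simp only [← mulVec_mulVec, Geom.glEquiv_apply, mulVec_inv_mulVec, inv_inv]
  · have h1 : ∀ k k' : Matrix ι ι F, (∀ v, (g : Matrix ι ι F) *ᵥ k *ᵥ v = k' *ᵥ (g : Matrix ι ι F) *ᵥ v)
        → (g : Matrix ι ι F) * k * ((g⁻¹ : GL ι F) : Matrix ι ι F) = k' := fun k k' e => by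
      rw [show (g : Matrix ι ι F) * k = k' * g from
        toLin'.injective (LinearMap.ext fun v => by simpa using e v), mul_assoc, Units.mul_inv,
        mul_one]
    refine fun hg k => ⟨fun hk => ?_, fun hk => ?_⟩
    · obtain ⟨k', e⟩ := hg.1 ⟨k, hk⟩
      exact h1 k k' e ▸ k'.2
    · obtain ⟨k', e⟩ := hg.2 ⟨_, hk⟩
      have := h1 k' _ e
      rw [Units.mul_left_inj, Units.mul_right_inj] at this
      exact this ▸ k'.2

theorem SL_le_of_field [Finite F] {r : ℕ} (hr : r.Prime) (hlt : r < Fintype.card ι)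
    {K : Subalgebra F (Matrix ι ι F)} (hK : IsFieldSubalgebra r K) {X : Subgroup (GL ι F)}
    (hX : specialLinear ι F ⊓ subalgebraNormalizer K ≤ X) {m : GL ι F} (hm : m ∈ X)
    (hm' : m ∉ subalgebraNormalizer K) : specialLinear ι F ≤ X := by
  have : Nonempty ι := Fintype.card_pos_iff.1 (by omega)
  have hF := isField_of_fieldSubalgebra hK
  letI := hF.toField
  have : IsScalarTower F K (ι → F) := ⟨fun c k v => smul_mulVec c (k : Matrix ι ι F) v⟩
  have h1 := finrank_mul_finrank F K (ι → F)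
  rw [hK.finrank_eq, finrank_fintype_fun_eq_card] at h1
  have h0 : 2 ≤ finrank K (ι → F) := by
    by_contra hc
    have : finrank K (ι → F) ≤ 1 := by omega
    nlinarith
  have h2 := FldL.sl_le_of_notMem (K := K) (X := X.map (Geom.glEquiv ι F).toMonoidHom)
    ⟨hK.finrank_eq ▸ hr, h0, fun g hg hg' => by
      obtain ⟨g, rfl⟩ := (Geom.glEquiv ι F).surjective g
      exact ⟨g, hX ⟨(mem_specialLinear_iff g).2 hg',
        (mem_subalgebraNormalizer_iff_semiG hF g).2 hg⟩, rfl⟩⟩ ⟨m, hm, rfl⟩
    (mt (mem_subalgebraNormalizer_iff_semiG hF m).2 hm')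
  intro g hg
  obtain ⟨g', h3, h4⟩ := h2 ((mem_specialLinear_iff g).1 hg)
  exact (Geom.glEquiv ι F).injective h4 ▸ h3

theorem isMaximalIn_sl_field [Finite F] {r : ℕ} (hr : r.Prime) (hlt : r < Fintype.card ι)
    {K : Subalgebra F (Matrix ι ι F)} (hK : IsFieldSubalgebra r K) :
    IsMaximalIn (specialLinear ι F) (subalgebraNormalizer K ⊓ specialLinear ι F) :=
  MaxIn.isMaximalIn (MulEquiv.refl _) ⟨SL_not_le_field (by have := hr.two_le; omega) hr.two_le hK,
    fun _ hM _ _ hm hm' => SL_le_of_field hr hlt hK hM hm hm'⟩ (fun _ => Iff.rfl) fun _ => Iff.rfl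

theorem isCoatom_field [Finite F] {r : ℕ} (hr : r.Prime) (hlt : r < Fintype.card ι)
    {K : Subalgebra F (Matrix ι ι F)} (hK : IsFieldSubalgebra r K) :
    IsCoatom (subalgebraNormalizer K) := by
  refine ⟨fun e => SL_not_le_field (by have := hr.two_le; omega) hr.two_le hK (e ▸ le_top),
    fun M hM => eq_top_iff.2 fun g _ => ?_⟩
  obtain ⟨m, hm, hm'⟩ := SetLike.exists_of_lt hM
  have h1 := SL_le_of_field hr hlt hK (inf_le_right.trans hM.le) hm hm'
  have : Nonempty ι := Fintype.card_pos_iff.1 (by omega)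
  have hF := isField_of_fieldSubalgebra hK
  letI := hF.toField
  have : IsScalarTower F K (ι → F) := ⟨fun c k v => smul_mulVec c (k : Matrix ι ι F) v⟩
  have : FiniteDimensional K (ι → F) := Module.Finite.of_finite
  obtain ⟨a, ha, e⟩ := exists_semiG_det (K := K) (V := ι → F) (LinearEquiv.det (Geom.glEquiv ι F g))
  obtain ⟨a, rfl⟩ := (Geom.glEquiv ι F).surjective a
  have h2 : a⁻¹ * g ∈ specialLinear ι F := by
    rw [mem_specialLinear_iff, map_mul, map_inv, MonoidHom.mem_ker, map_mul, map_inv, e,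
      inv_mul_cancel]
  simpa using mul_mem (hM.le ((mem_subalgebraNormalizer_iff_semiG hF a).2 ha)) (h1 h2)

end CF.MaxSub
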