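/-
Normalisers of field subalgebras of composite degree are not maximal.
-/
import Cfsg.Agent.MaxSub.C3C
import Cfsg.Agent.MaxSub.Idem

set_option autoImplicit false

namespace CF.MaxSub

open Module Geom Matrix Cfsg Cfsg.Geo
open scoped MatrixGroups

variable {ι : Type} [Fintype ι] [DecidableEq ι] {F : Type*} [Field F]

theorem exists_between_field [Fintype F] {r : ℕ} (hr1 : 1 < r) (hrp : ¬ r.Prime)
    (hrn : r ∣ Fintype.card ι) (hlt : r < Fintype.card ι) {K : Subalgebra F (Matrix ι ι F)}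
    (hK : IsFieldSubalgebra r K) : ∃ M : Subgroup (GL ι F), ¬ specialLinear ι F ≤ M ∧
      subalgebraNormalizer K ≤ M ∧ ∃ t ∈ specialLinear ι F, t ∈ M ∧ t ∉ subalgebraNormalizer K := by
  have : Nonempty ι := Fintype.card_pos_iff.1 (by omega)
  obtain ⟨s, L, hs, hL, e⟩ := exists_fieldSubalgebra_prime K hK.comm hK.inv (by
    rintro rfl
    have := hK.finrank_eq
    rw [Subalgebra.finrank_bot] at this
    omega)
  have h1 : L ≤ K := fun x hx => ((e x).1 hx).1
  have h2 : s < r := by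
    rw [← hL.finrank_eq, ← hK.finrank_eq]
    refine Submodule.finrank_lt_finrank_of_lt (s := L.toSubmodule) (t := K.toSubmodule)
      (lt_of_le_of_ne h1 fun e' => hrp ?_)
    rw [← hK.finrank_eq, ← Subalgebra.toSubmodule_injective e', hL.finrank_eq]
    exact hs
  obtain ⟨k, hk, hk'⟩ : ∃ k ∈ K, k ∉ L := by
    by_contra! hc
    rw [← hL.finrank_eq, ← hK.finrank_eq, le_antisymm h1 hc] at h2
    exact lt_irrefl _ h2
  refine ⟨subalgebraNormalizer L, SL_not_le_field (by omega) hs.two_le hL, fun g hg x => ?_, ?_⟩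
  · rw [e, e, ← hg x, Units.conj_pow, Units.mul_left_inj, Units.mul_right_inj]
  have hF := isField_of_fieldSubalgebra hL
  letI := hF.toField
  have : IsScalarTower F L (ι → F) := ⟨fun c k v => smul_mulVec c (k : Matrix ι ι F) v⟩
  have : FiniteDimensional L (ι → F) := Module.Finite.of_finite
  have h3 := finrank_mul_finrank F L (ι → F)
  rw [hL.finrank_eq, finrank_fintype_fun_eq_card] at h3
  obtain ⟨v, hv⟩ := exists_ne (0 : ι → F)
  obtain ⟨w, hw⟩ : ∃ w, w ∉ Submodule.span L {v, k *ᵥ v} := by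
    classical
    by_contra! hc
    have h4 := (finrank_span_finset_le_card (R := L) {v, k *ᵥ v}).trans Finset.card_le_two
    rw [Set.finrank, Finset.coe_pair, Submodule.eq_top_iff'.2 hc, finrank_top] at h4
    obtain ⟨d, hd⟩ := hrn
    have : 2 ≤ d := by
      by_contra h5
      have : d ≤ 1 := by omega
      nlinarith
    nlinarith
  obtain ⟨φ, h4, h5⟩ := exists_dual_one hw
  have h6 : φ v = 0 := h5 v (Submodule.subset_span (by simp))
  have h7 : φ (k *ᵥ v) = 0 := h5 _ (Submodule.subset_span (by simp))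
  obtain ⟨t, ht⟩ := (Geom.glEquiv ι F).surjective ((tvE h6).restrictScalars F)
  have h8 : ∀ x, (t : Matrix ι ι F) *ᵥ x = x + (φ x : Matrix ι ι F) *ᵥ v := fun x =>
    LinearEquiv.congr_fun ht x
  refine ⟨t, ?_, (mem_subalgebraNormalizer_iff_semiG hF t).2 (ht ▸ restrict_mem_semiG _),
    fun h9 => hk' ?_⟩
  · rw [mem_specialLinear_iff, ht, mem_SLG, det_restrict, mem_SLG.1 (tvE_mem_SLG h6), map_one]
  have h10 : (t : Matrix ι ι F) *ᵥ v = v := by simp [h8, h6]
  have h11 := fieldSubalgebra_eq_of_mulVec hK ((h9 k).1 hk) hk hv (by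
    rw [← mulVec_mulVec, ← mulVec_mulVec, ← h10, inv_mulVec_mulVec, h10, h8, h7]
    simp)
  have h12 := congrArg (· *ᵥ (t : Matrix ι ι F) *ᵥ w) h11
  simp only [← mulVec_mulVec, inv_mulVec_mulVec] at h12
  rw [h8, h8, h4, mulVec_add, add_right_inj, OneMemClass.coe_one, one_mulVec] at h12
  exact fieldSubalgebra_eq_of_mulVec hK (h1 (φ (k *ᵥ w)).2) hk hv h12 ▸ (φ (k *ᵥ w)).2

theorem not_max_field [Fintype F] {r : ℕ} (hr1 : 1 < r) (hrp : ¬ r.Prime)
    (hrn : r ∣ Fintype.card ι) (hlt : r < Fintype.card ι) {K : Subalgebra F (Matrix ι ι F)}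
    (hK : IsFieldSubalgebra r K) : ¬ IsCoatom (subalgebraNormalizer K) ∧
      ¬ IsMaximalIn (specialLinear ι F) (subalgebraNormalizer K ⊓ specialLinear ι F) := by
  obtain ⟨M, h1, h2, t, h3, h4, h5⟩ := exists_between_field hr1 hrp hrn hlt hK
  refine ⟨fun h => h1 ((h.2 M (lt_of_le_of_ne h2 fun e => h5 (e ▸ h4))).ge.trans' le_top),
    fun h => ?_⟩
  rcases h.2 (M ⊓ specialLinear ι F) (inf_le_inf_right _ h2) inf_le_right with e | e
  · exact h5 (e.le ⟨h4, h3⟩).1
  · exact h1 (e.ge.trans inf_le_left)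

end CF.MaxSub
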